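import Cfsg.Agent.SP.NTh.Iface
import Cfsg.Agent.H502.TO.Loc
import Cfsg.Agent.H555.Hall.ThNonAb
import Cfsg.Agent.H491.PB.ThC

/-! # S5755, row `Th`: the `p`-local subgroups, `p ≥ 5` (helper77) -/

set_option autoImplicit false

namespace Cfsg.Agent.SP.NTh.P

open Subgroup Cfsg.Agent.SP Cfsg.Agent.SP.NegS

theorem finTh : Finite Th := Nat.finite_of_card_ne_zero (by rw [Cfsg.Agent.Th.Final.card_Th]; norm_num)

/-- small groups with few involutions fail all the thresholds -/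
theorem kill (hT : Thr) {A B : Subgroup Th} (h : IsPair A B) (hA : Nat.card A ≤ 116000) (h2 : nOrd A 2 ≤ 31254) : False := by
  have := finTh
  have h1 : ∀ r, nOrd A r ≤ 116000 := fun r => (ncard_le_card_subgroup fun _ hx => hx.1).trans hA
  have h3 : ∀ y, nCls A y ^ 2 ≤ 116000 ^ 2 := fun y =>
    Nat.pow_le_pow_left ((ncard_le_card_subgroup fun _ hx => hx.1).trans hA) 2
  obtain ⟨r, hr, hd⟩ := h.exists_prime
  by_cases h11 : 11 ≤ r
  · have := hT.big h r hr h11 hd
    have := h1 r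
    omega
  · have h4 : r = 2 ∨ r = 3 ∨ r = 5 ∨ r = 7 := by
      have h5 : ∀ r < 11, r.Prime → r = 2 ∨ r = 3 ∨ r = 5 ∨ r = 7 := by decide
      exact h5 r (by omega) hr
    rcases h4 with rfl | rfl | rfl | rfl
    · have := hT.two h hd
      omega
    · have := hT.three h hd
      have := h3 xA
      have := h3 xB
      have := h3 xC
      omega
    · have := hT.five h hd
      have := h1 5
      omega
    · have := hT.seven h hd
      have := h1 7
      omega

/-- the centre of a `p`-subgroup -/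
theorem exists_ab {T : Type*} [Group T] [Finite T] {p : ℕ} (hp : p.Prime) {V : Subgroup T} (hb : V ≠ ⊥) (hV : IsPGroup p V) :
    ∃ (W : Subgroup T) (j : ℕ), j ≠ 0 ∧ Nat.card W = p ^ j ∧ (∀ x ∈ W, ∀ y ∈ W, x * y = y * x) ∧
      normalizer (V : Set T) ≤ normalizer (W : Set T) := by
  have := Fact.mk hp
  have hnt : Nontrivial V := (nontrivial_iff_ne_bot V).2 hb
  have hW : IsPGroup p ↥(V ⊓ centralizer (V : Set T)) := hV.to_le inf_le_left
  obtain ⟨j, hj⟩ := IsPGroup.iff_card.1 hW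
  refine ⟨V ⊓ centralizer (V : Set T), j, fun h => ?_, hj, fun x hx y hy => hy.2 x hx.1, fun g hg => ?_⟩
  · rw [h, pow_zero, card_eq_one] at hj
    have := hV.center_nontrivial
    obtain ⟨⟨z, hz⟩, hz1⟩ := exists_ne (1 : center V)
    have h1 : (z : T) ∈ V ⊓ centralizer (V : Set T) :=
      ⟨z.2, fun y hy => congrArg Subtype.val (mem_center_iff.1 hz ⟨y, hy⟩)⟩
    rw [hj, mem_bot] at h1
    exact hz1 (Subtype.ext (Subtype.ext h1))
  · apply mem_normalizer_fintype
    intro x hx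
    refine ⟨(mem_normalizer_iff.1 hg x).1 hx.1, fun y hy => ?_⟩
    have h1 : g⁻¹ * y * g⁻¹⁻¹ ∈ V := (mem_normalizer_iff.1 (inv_mem hg) y).1 hy
    have h2 := hx.2 _ h1
    calc y * (g * x * g⁻¹) = g * (g⁻¹ * y * g⁻¹⁻¹ * x) * g⁻¹ := by group
      _ = g * x * g⁻¹ * y := by rw [h2]; group

/-- the two bounds -/
theorem bounds {A W : Subgroup Th} {p j c : ℕ} (hp : p.Prime) (hj : j ≠ 0) (hW : Nat.card W = p ^ j)
    (hA : A ≤ normalizer (W : Set Th)) (hc : ∀ x : Th, orderOf x = p → Nat.card (centralizer ({x} : Set Th)) ≤ c) :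
    Nat.card A ≤ (p ^ j - 1) * c ∧ p * nOrd A 2 ≤ (p ^ j - 1) * c + (p - 1) * c := by
  have := finTh
  have := Fact.mk hp
  obtain ⟨x, hx⟩ := exists_prime_orderOf_dvd_card' (G := W) p (by rw [hW]; exact dvd_pow_self p hj)
  have hx' : orderOf (x : Th) = p := by rw [orderOf_coe, hx]
  have hx1 : (x : Th) ≠ 1 := fun h => by
    rw [h, orderOf_one] at hx'
    exact hp.one_lt.ne hx'
  have h1 : Nat.card (normalizer (W : Set Th)) ≤ (p ^ j - 1) * c := by
    have h2 := card_le_one (A := normalizer (W : Set Th)) le_rfl x.2 hx1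
    rw [hW] at h2
    exact h2.trans (Nat.mul_le_mul_left _ ((card_le_of_le inf_le_right).trans (hc _ hx')))
  refine ⟨(card_le_of_le hA).trans h1, ?_⟩
  have h2 := invol_count (X := (normalizer (W : Set Th) : Set Th)) (I := {y : Th | y ∈ A ∧ orderOf y = 2}) hp hx'
    (fun y hy => mul_mem hy (le_normalizer x.2))
    (fun y hy => ⟨hA hy.1, (pow_two y).symm.trans (orderOf_dvd_iff_pow_eq_one.1 hy.2.dvd)⟩)
  refine h2.trans (Nat.add_le_add ((ncard_le_card_subgroup fun _ hy => hy).trans h1) (Nat.mul_le_mul_left _ (hc _ hx')))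

theorem boxP : BoxP := by
  rintro hT A B h p hp h5 ⟨V, hb, hV, hAV⟩
  have := finTh
  obtain ⟨W, j, hj, hW, hab, hVW⟩ := exists_ab hp hb hV
  have hA := hAV.trans hVW
  have hd : p ^ j ∣ 2 ^ 15 * 3 ^ 10 * 5 ^ 3 * 7 ^ 2 * 13 * 19 * 31 := by
    have h1 := card_subgroup_dvd_card W
    rw [hW, Cfsg.Agent.Th.Final.card_Th] at h1
    exact h1
  have hpd : p ∣ 2 ^ 15 * 3 ^ 10 * 5 ^ 3 * 7 ^ 2 * 13 * 19 * 31 := (dvd_pow_self p hj).trans hd
  have hle : ∀ k : ℕ, ¬ p ^ (k + 1) ∣ 2 ^ 15 * 3 ^ 10 * 5 ^ 3 * 7 ^ 2 * 13 * 19 * 31 → j ≤ k := fun k hk => by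
    by_contra h1
    exact hk ((pow_dvd_pow p (by omega)).trans hd)
  have hpe : ∀ q : ℕ, q.Prime → ∀ e, p ∣ q ^ e → p = q := fun q hq e h1 =>
    (Nat.prime_dvd_prime_iff_eq hp hq).1 (hp.dvd_of_dvd_pow h1)
  simp only [hp.dvd_mul] at hpd
  rcases hpd with (((((h1 | h1) | h1) | h1) | h1) | h1) | h1
  · have := hpe 2 Nat.prime_two _ h1
    omega
  · have := hpe 3 Nat.prime_three _ h1
    omega
  · obtain rfl := hpe 5 Nat.prime_five _ h1
    have h2 := hle 3 (by norm_num)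
    have h3 : j ≠ 3 := by
      rintro rfl
      obtain ⟨x, hx, y, hy, hxy⟩ := H555.Hall.ThN.nonab (MulEquiv.refl _) W hW
      exact hxy (hab x hx y hy)
    obtain ⟨h4, h6⟩ := bounds (c := 3000) hp hj hW hA fun x hx => (H502.TO.card_five hx).le
    have h7 : 5 ^ j ≤ 5 ^ 2 := Nat.pow_le_pow_right (by norm_num) (by omega)
    exact kill hT h.pair (by omega) (by omega)
  · obtain rfl := hpe 7 (by norm_num) _ h1
    have h2 := hle 2 (by norm_num)
    obtain ⟨h4, h6⟩ := bounds (c := 1176) hp hj hW hA fun x hx => Nat.le_of_dvd (by norm_num) (hT.c7 x hx)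
    have h7 : 7 ^ j ≤ 7 ^ 2 := Nat.pow_le_pow_right (by norm_num) h2
    exact kill hT h.pair (by omega) (by omega)
  · obtain rfl := hpe 13 (by norm_num) 1 (by rwa [pow_one])
    have h2 := hle 1 (by norm_num)
    obtain ⟨h4, h6⟩ := bounds (c := 39) hp hj hW hA fun x hx => Nat.le_of_dvd (by norm_num) (hT.c13 x hx)
    have h7 : 13 ^ j ≤ 13 ^ 1 := Nat.pow_le_pow_right (by norm_num) h2
    exact kill hT h.pair (by omega) (by omega)
  · obtain rfl := hpe 19 (by norm_num) 1 (by rwa [pow_one])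
    have h2 := hle 1 (by norm_num)
    obtain ⟨h4, h6⟩ := bounds (c := 19) hp hj hW hA fun x hx => (H491.PB.Th.card_nineteen hx).le
    have h7 : 19 ^ j ≤ 19 ^ 1 := Nat.pow_le_pow_right (by norm_num) h2
    exact kill hT h.pair (by omega) (by omega)
  · obtain rfl := hpe 31 (by norm_num) 1 (by rwa [pow_one])
    have h2 := hle 1 (by norm_num)
    obtain ⟨h4, h6⟩ := bounds (c := 31) hp hj hW hA fun x hx => (H491.PB.Th.card_thirtyone hx).le
    have h7 : 31 ^ j ≤ 31 ^ 1 := Nat.pow_le_pow_right (by norm_num) h2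
    exact kill hT h.pair (by omega) (by omega)

end Cfsg.Agent.SP.NTh.P
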